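import Cfsg.Agent.H229.T.FrobP
import Cfsg.Agent.H229.T.Frame

/-!
# Box X4 of S3435: a Borel subgroup of `Ω₃(q)` (helper19)
-/

set_option autoImplicit false
set_option linter.unusedSectionVars false

namespace Cfsg.Agent.R2.Spec.X4

open Cfsg.Agent.H229.T
open QuadraticMap Module
open Cfsg.Agent.LieClassical.OrthCore Cfsg.Agent.LieClassical.OrthForms Cfsg.Agent.LieClassical.OrthFinite
open Cfsg.Agent.H160 Cfsg.Agent.H160.QSpin Cfsg.Agent.H160.QDisc Cfsg.Agent.H160.QFinal Cfsg.Agent.H160.QModel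
open Cfsg.Agent.H160.QReal

namespace Bor

variable (F : Type*) [Field F]

/-- the form `x y + w²` -/
noncomputable def B3 : LinearMap.BilinForm F ((F × F) × F) :=
  LinearMap.mk₂ F (fun v w => v.1.1 * w.1.2 + v.2 * w.2)
    (fun x x' y => by simp only [Prod.fst_add, Prod.snd_add]; ring)
    (fun c x y => by simp only [Prod.smul_fst, Prod.smul_snd, smul_eq_mul]; ring)
    (fun x y y' => by simp only [Prod.fst_add, Prod.snd_add]; ring)
    (fun c x y => by simp only [Prod.smul_fst, Prod.smul_snd, smul_eq_mul]; ring)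

theorem B3_apply (v w : (F × F) × F) : B3 F v w = v.1.1 * w.1.2 + v.2 * w.2 := rfl

theorem qf_B3 (v : (F × F) × F) : qf (B3 F) v = v.1.1 * v.1.2 + v.2 * v.2 := rfl

/-- the unipotent elements -/
def un3 (b : F) : ((F × F) × F) ≃ₗ[F] ((F × F) × F) where
  toFun v := ((v.1.1 - 2 * b * v.2 - b * b * v.1.2, v.1.2), v.2 + b * v.1.2)
  map_add' v w := by
    ext
    · simp only [Prod.fst_add, Prod.snd_add]; ring
    · rfl
    · simp only [Prod.fst_add, Prod.snd_add]; ring
  map_smul' c v := by
    ext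
    · simp only [Prod.smul_fst, Prod.smul_snd, RingHom.id_apply, smul_eq_mul]; ring
    · rfl
    · simp only [Prod.smul_fst, Prod.smul_snd, RingHom.id_apply, smul_eq_mul]; ring
  invFun v := ((v.1.1 + 2 * b * v.2 - b * b * v.1.2, v.1.2), v.2 - b * v.1.2)
  left_inv v := by
    ext
    · simp only; ring
    · rfl
    · simp only; ring
  right_inv v := by
    ext
    · simp only; ring
    · rfl
    · simp only; ring

variable {F}

theorem un3_apply (b : F) (v : (F × F) × F) :
    un3 F b v = ((v.1.1 - 2 * b * v.2 - b * b * v.1.2, v.1.2), v.2 + b * v.1.2) := rfl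

theorem un3_mem (b : F) : un3 F b ∈ O (qf (B3 F)) := by
  rw [mem_O]
  intro v
  rw [qf_B3, qf_B3, un3_apply]
  ring

theorem un3_add (a b : F) : un3 F (a + b) = un3 F a * un3 F b := by
  apply LinearEquiv.ext
  intro v
  show un3 F (a + b) v = un3 F a (un3 F b v)
  simp only [un3_apply]
  ext
  · simp only; ring
  · rfl
  · simp only; ring

theorem un3_zero : un3 F 0 = 1 := by
  apply LinearEquiv.ext
  intro v
  rw [un3_apply]
  show _ = v
  ext
  · simp only; ring
  · rfl
  · simp only; ring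

theorem un3_injective {a b : F} (h : un3 F a = un3 F b) : a = b := by
  have h1 : (un3 F a ((0, 1), 0)).2 = (un3 F b ((0, 1), 0)).2 := by rw [h]
  simpa [un3_apply] using h1

/-- the torus -/
def to3 (z : Fˣ) : ((F × F) × F) ≃ₗ[F] ((F × F) × F) where
  toFun v := ((z * v.1.1, ((z⁻¹ : Fˣ) : F) * v.1.2), v.2)
  map_add' v w := by
    ext
    · simp only [Prod.fst_add]; ring
    · simp only [Prod.fst_add, Prod.snd_add]; ring
    · rfl
  map_smul' c v := by
    ext
    · simp only [Prod.smul_fst, RingHom.id_apply, smul_eq_mul]; ring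
    · simp only [Prod.smul_fst, Prod.smul_snd, RingHom.id_apply, smul_eq_mul]; ring
    · rfl
  invFun v := ((((z⁻¹ : Fˣ) : F) * v.1.1, z * v.1.2), v.2)
  left_inv v := by
    ext
    · simp
    · simp
    · rfl
  right_inv v := by
    ext
    · simp
    · simp
    · rfl

theorem to3_apply (z : Fˣ) (v : (F × F) × F) : to3 z v = ((z * v.1.1, ((z⁻¹ : Fˣ) : F) * v.1.2), v.2) := rfl

theorem to3_mem (z : Fˣ) : to3 z ∈ O (qf (B3 F)) := by
  rw [mem_O]
  intro v
  rw [qf_B3, qf_B3, to3_apply]
  have : (z : F) * ((z⁻¹ : Fˣ) : F) = 1 := Units.mul_inv z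
  linear_combination (v.1.1 * v.1.2) * this

theorem to3_mul (y z : Fˣ) : to3 (y * z) = to3 y * to3 z := by
  apply LinearEquiv.ext
  intro v
  show to3 (y * z) v = to3 y (to3 z v)
  simp only [to3_apply, mul_inv, Units.val_mul]
  ext
  · simp only; ring
  · simp only; ring
  · rfl

theorem to3_one : to3 (1 : Fˣ) = 1 := by
  apply LinearEquiv.ext
  intro v
  rw [to3_apply]
  show _ = v
  ext
  · simp
  · simp
  · rfl

/-- as a homomorphism -/
def to3Hom : Fˣ →* (((F × F) × F) ≃ₗ[F] ((F × F) × F)) where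
  toFun := to3
  map_one' := to3_one
  map_mul' := to3_mul

theorem to3Hom_injective : Function.Injective (to3Hom (F := F)) := by
  intro y z h
  have h1 : to3 y ((1, 0), 0) = to3 z ((1, 0), 0) := by
    have h2 : to3 y = to3 z := h
    rw [h2]
  apply Units.ext
  simpa [to3_apply] using h1

theorem to3_un3 (z : Fˣ) (b : F) : to3 z * un3 F b = un3 F (z * b) * to3 z := by
  apply LinearEquiv.ext
  intro v
  show to3 z (un3 F b v) = un3 F (z * b) (to3 z v)
  have h : (z : F) * ((z⁻¹ : Fˣ) : F) = 1 := Units.mul_inv z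
  simp only [un3_apply, to3_apply]
  ext
  · simp only
    linear_combination (z * b * b * v.1.2) * h
  · rfl
  · simp only
    linear_combination (-(b * v.1.2)) * h

theorem nondeg_B3 (h2 : (2 : F) ≠ 0) : Nondeg (qf (B3 F)) := by
  intro v hv
  have hp : ∀ w, B3 F v w + B3 F w v = 0 := fun w => by rw [← polar_qf]; exact hv w
  have h1 : v.1.1 = 0 := by
    have := hp ((0, 1), 0)
    simpa [B3_apply] using this
  have h3 : v.1.2 = 0 := by
    have := hp ((1, 0), 0)
    simpa [B3_apply] using this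
  have h4 : v.2 = 0 := by
    have h5 := hp ((0, 0), 1)
    have h6 : 2 * v.2 = 0 := by
      have h7 : v.2 + v.2 = 0 := by simpa [B3_apply] using h5
      rw [two_mul]; exact h7
    exact (mul_eq_zero.1 h6).resolve_left h2
  ext
  · exact h1
  · exact h3
  · exact h4

end Bor

variable {F : Type*} [Field F] [Fintype F]

theorem mem_O_D {c c' : F} (hc' : c' ≠ 0) {g : (ZMod 3 → F) ≃ₗ[F] (ZMod 3 → F)}
    (hg : g ∈ O (D F 3 c')) : g ∈ O (D F 3 c) := by
  rw [mem_O] at hg ⊢
  intro x
  have h := hg x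
  rw [D_apply, D_apply] at h ⊢
  rw [mul_left_cancel₀ hc' h]

open Bor in
/-- **A Borel subgroup of `Ω₃(q)`, odd part.** -/
theorem exists_borel [DecidableEq F] {p : ℕ} [hp : Fact p.Prime] [CharP F p] (h2 : (2 : F) ≠ 0) {c : F} (hc : c ≠ 0)
    {l : Fˣ} (hl : Odd (orderOf l)) :
    ∃ (u : Multiplicative F →* Om (D F 3 c)) (t : Om (D F 3 c)), Function.Injective u ∧ orderOf t = orderOf l ∧
      ∀ b : F, t * u (Multiplicative.ofAdd b) = u (Multiplicative.ofAdd ((l : F) * b)) * t := by
  have hp2 : p ≠ 2 := by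
    rintro rfl
    apply h2
    have := CharP.cast_eq_zero F 2
    exact_mod_cast this
  have hpo : Odd p := hp.out.odd_of_ne_two hp2
  obtain ⟨c', e, hc', he⟩ := exists_frame (n := 3) h2 (by decide) (nondeg_B3 (F := F) h2) (by simp)
  -- transport
  have hO : ∀ g ∈ O (qf (B3 F)), cj e.symm g ∈ O (D F 3 c) := by
    intro g hg
    apply mem_O_D hc'
    rw [mem_O] at hg ⊢
    intro x
    have h1 : ∀ y, D F 3 c' (e.symm y) = qf (B3 F) y := fun y => by
      have h3 := he (e.symm y)
      rw [e.apply_symm_apply] at h3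
      exact h3.symm
    rw [cj_apply, h1, hg, LinearEquiv.symm_symm]
    exact he x
  have hinj : Function.Injective (cj e.symm (F := F)) := by
    intro g h hgh
    apply LinearEquiv.ext
    intro x
    have h1 : cj e.symm g (e.symm x) = cj e.symm h (e.symm x) := by rw [hgh]
    rw [cj_apply, cj_apply, LinearEquiv.symm_symm, e.apply_symm_apply] at h1
    exact e.symm.injective h1
  let cjH : (((F × F) × F) ≃ₗ[F] ((F × F) × F)) →* ((ZMod 3 → F) ≃ₗ[F] (ZMod 3 → F)) :=
    MonoidHom.mk' (cj e.symm) (cj_mul e.symm)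
  have hnd := nondeg_D (n := 3) h2 hc
  have hu : ∀ b : F, cj e.symm (un3 F b) ∈ Om (D F 3 c) := by
    intro b
    refine El.of_odd hnd (hO _ (un3_mem b)) ?_
    refine Odd.of_dvd_nat hpo (orderOf_dvd_of_pow_eq_one ?_)
    show cjH (un3 F b) ^ p = 1
    rw [← map_pow]
    have h3 : ∀ n : ℕ, un3 F b ^ n = un3 F (n * b) := by
      intro n
      induction n with
      | zero => rw [pow_zero, Nat.cast_zero, zero_mul, un3_zero]
      | succ n ih => rw [pow_succ, ih, Nat.cast_succ, add_mul, one_mul, un3_add]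
    rw [h3, CharP.cast_eq_zero, zero_mul, un3_zero, map_one]
  have ht : cj e.symm (to3 l) ∈ Om (D F 3 c) := by
    refine El.of_odd hnd (hO _ (to3_mem l)) ?_
    have h3 : orderOf (cjH (to3Hom l)) = orderOf l := by
      rw [orderOf_injective cjH hinj, orderOf_injective _ to3Hom_injective]
    show Odd (orderOf (cjH (to3Hom l)))
    rw [h3]
    exact hl
  refine ⟨
    { toFun := fun b => ⟨cj e.symm (un3 F b.toAdd), hu _⟩
      map_one' := Subtype.ext (by
        show cjH (un3 F (0 : F)) = 1
        rw [un3_zero, map_one])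
      map_mul' := fun x y => Subtype.ext (by
        show cjH (un3 F (x.toAdd + y.toAdd)) = cjH (un3 F x.toAdd) * cjH (un3 F y.toAdd)
        rw [un3_add, map_mul]) }, ⟨cj e.symm (to3 l), ht⟩, ?_, ?_, ?_⟩
  · intro x y hxy
    have h3 : cj e.symm (un3 F x.toAdd) = cj e.symm (un3 F y.toAdd) := congrArg Subtype.val hxy
    exact Multiplicative.toAdd.injective (un3_injective (hinj h3))
  · rw [← Subgroup.orderOf_coe]
    show orderOf (cjH (to3Hom l)) = _
    rw [orderOf_injective cjH hinj, orderOf_injective _ to3Hom_injective]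
  · intro b
    apply Subtype.ext
    show cjH (to3 l) * cjH (un3 F b) = cjH (un3 F (l * b)) * cjH (to3 l)
    rw [← map_mul, ← map_mul, to3_un3]

end Cfsg.Agent.R2.Spec.X4
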