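import Cfsg.Agent.H229.T.Half
import Cfsg.Agent.H390.PslSpec

/-!
# Box X4 of S3435, own characteristic: the centralizer of an element of prime order `r`, and `Ω₃(q)` (helper19)

* `cent_setup` : `C_G(a) / C_K(a)` contains a copy of `X ≤ C_{G/K}(a)`;
* `exists_three_or` : `Ω₃(q)` acting on an elementary abelian `s`-group `W ≠ 1`, `s` odd: either some element of order
  `3` has a nontrivial norm, or all the half turns act trivially;
* `exists_rot` : a product of two half turns of order divisible by `(q - ε)/2`, `q = ε mod 4`.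
-/

set_option autoImplicit false
set_option linter.unusedSectionVars false

namespace Cfsg.Agent.R2.Spec.X4

open Cfsg.Agent.H229.T Finset
open QuadraticMap
open Cfsg.Agent.LieClassical.OrthCore Cfsg.Agent.LieClassical.OrthForms Cfsg.Agent.LieClassical.OrthFinite
open Cfsg.Agent.H160 Cfsg.Agent.H160.QSpin Cfsg.Agent.H160.QDisc Cfsg.Agent.H160.QFinal Cfsg.Agent.H160.QModel
open Cfsg.Agent.H160.QReal

section Setup

universe u

variable {G : Type u} [Group G] [Finite G] {K : Subgroup G} [K.Normal]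

/-- **The centralizer.** -/
theorem cent_setup (hK : Group.IsNilpotent K) {r p : ℕ} (hr : r.Prime) (hp : p.Prime) (hrK : ¬ r ∣ Nat.card K)
    {a : G} (ha : orderOf a = r) {X : Type*} [Group X] (φ : X →* G ⧸ K) (hφ : Function.Injective φ)
    (hc : ∀ x, Commute (φ x) (a : G ⧸ K)) (hex : ∃ k ∈ K, orderOf k = p ∧ Commute k a) :
    ∃ (G1 : Subgroup G) (K1 : Subgroup G1) (_ : K1.Normal) (ψ : X →* G1 ⧸ K1), Function.Injective ψ ∧
      Group.IsNilpotent K1 ∧ p ∣ Nat.card K1 ∧ ∀ x : G1, Commute (x : G) a := by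
  classical
  have hpf := Fact.mk hp
  let G1 : Subgroup G := Subgroup.centralizer {a}
  let K1 : Subgroup G1 := K.subgroupOf G1
  have hK1 : Group.IsNilpotent K1 := by
    let f : K1 →* K :=
      { toFun := fun x => ⟨((x : G1) : G), x.2⟩
        map_one' := rfl
        map_mul' := fun _ _ => rfl }
    have hf : Function.Injective f := fun x y h => by
      have h1 : (((x : G1) : G)) = ((y : G1) : G) := congrArg (fun z : K => (z : G)) h
      exact Subtype.ext (Subtype.ext h1)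
    have := hK
    exact Subgroup.isNilpotent_of_ker_le_center f (by rw [(MonoidHom.ker_eq_bot_iff f).2 hf]; exact bot_le)
  have hpK1 : p ∣ Nat.card K1 := by
    obtain ⟨k, hkK, hko, hka⟩ := hex
    have hk1 : k ∈ G1 := by
      rw [Subgroup.mem_centralizer_singleton_iff]
      exact hka.eq
    have : orderOf (⟨⟨k, hk1⟩, hkK⟩ : K1) = p := by
      rw [← Subgroup.orderOf_coe, ← Subgroup.orderOf_coe]
      exact hko
    rw [← this]
    exact orderOf_dvd_natCard _
  -- the embedding of the quotient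
  let ι : G1 ⧸ K1 →* G ⧸ K := QuotientGroup.map K1 K G1.subtype (fun x hx => hx)
  have hι : Function.Injective ι := by
    rw [injective_iff_map_eq_one]
    intro x hx
    obtain ⟨x, rfl⟩ := QuotientGroup.mk_surjective x
    have h1 : ((x : G) : G ⧸ K) = 1 := hx
    rw [QuotientGroup.eq_one_iff] at h1 ⊢
    exact h1
  have hrange : ∀ x, φ x ∈ ι.range := by
    intro x
    obtain ⟨y, hy, hya⟩ := exists_commute_lift K hr hrK ha (hc x)
    have hy1 : y ∈ G1 := by
      rw [Subgroup.mem_centralizer_singleton_iff]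
      exact hya.eq
    exact ⟨((⟨y, hy1⟩ : G1) : G1 ⧸ K1), hy⟩
  let ψ : X →* G1 ⧸ K1 := (MonoidHom.ofInjective hι).symm.toMonoidHom.comp (φ.codRestrict ι.range hrange)
  have hψ : ∀ x, ι (ψ x) = φ x := by
    intro x
    have h1 := (MonoidHom.ofInjective hι).apply_symm_apply (φ.codRestrict ι.range hrange x)
    exact congrArg Subtype.val h1
  refine ⟨G1, K1, inferInstance, ψ, ?_, hK1, hpK1, fun x => ?_⟩
  · intro x y h
    apply hφ
    rw [← hψ, ← hψ, h]
  · have := x.2
    rw [Subgroup.mem_centralizer_singleton_iff] at this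
    exact this

/-- an element of order divisible by `m` and by `r` -/
theorem exists_lcm_of_commute {a : G} {r m : ℕ} (ha : orderOf a = r) {y : G} (hy : m ∣ orderOf y) (hc : Commute y a) :
    ∃ x : G, m ∣ orderOf x ∧ r ∣ orderOf x := by
  obtain ⟨x, -, hx⟩ := hc.exists_orderOf_eq_lcm
  refine ⟨x, ?_, ?_⟩
  · rw [hx]; exact hy.trans (Nat.dvd_lcm_left _ _)
  · rw [hx, ← ha]; exact Nat.dvd_lcm_right _ _

end Setup

section Half

variable {F : Type*} [Field F] [Fintype F]

/-- **`Ω₃(q)` acting on an abelian group of odd exponent.** -/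
theorem exists_three_or (h2 : (2 : F) ≠ 0) {c : F} (hc : c ≠ 0) {W : Type*} [CommGroup W]
    (θ : Om (D F 3 c) →* MulAut W) {e : ℕ} (he : ∀ v : W, v ^ e = 1) (hcop : Nat.Coprime 2 e) :
    (∃ b : Om (D F 3 c), orderOf b = 3 ∧ ∃ w : W, ∏ i ∈ range 3, θ (b ^ i) w ≠ 1) ∨
      ∀ (v : ZMod 3 → F) (hv : D F 3 c v ≠ 0), D F 3 c v = c →
        ∃ h : zv v hv ∈ Om (D F 3 c), θ ⟨zv v hv, h⟩ = 1 := by
  classical
  by_cases hcon : ∃ b : Om (D F 3 c), orderOf b = 3 ∧ ∃ w : W, ∏ i ∈ range 3, θ (b ^ i) w ≠ 1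
  · exact Or.inl hcon
  right
  push Not at hcon
  have hodd : Odd 3 := by decide
  have key : ∀ (g : (ZMod 3 → F) ≃ₗ[F] (ZMod 3 → F)) (hg : g ∈ O (D F 3 c)) (t : ZMod 3 → ℤˣ),
      θ (kap hg (psi 3 1 c t)) = 1 := by
    intro g hg t
    let U := (psi (F := F) 3 1 c).range.map (kap hg)
    have hfin : Finite U := by
      have : Finite (psi (F := F) 3 1 c).range := inferInstance
      exact Finite.of_surjective _ ((kap hg).subgroupMap_surjective (psi (F := F) 3 1 c).range)
    have hord : orderOf (kap hg (ro hodd h2 hc)) = 3 := by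
      rw [orderOf_injective _ (kap_injective hg), orderOf_ro]
    have h4 := H371.Frob.trivial_of_norm θ U (c := kap hg (ro hodd h2 hc)) (m := 3) (e := e) (by norm_num)
      (by
        rintro _ ⟨_, ⟨t, rfl⟩, rfl⟩ i
        obtain ⟨s, hs⟩ := ro_inv_psi (m := 1) hodd h2 hc i t
        refine ⟨psi 3 1 c s, ⟨s, rfl⟩, ?_⟩
        rw [← hs, map_mul, map_mul, map_inv, map_pow])
      (by
        rintro i hi0 hi _ ⟨_, ⟨t, rfl⟩, rfl⟩ hcomm
        rw [← map_pow, ← map_mul, ← map_mul] at hcomm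
        rw [ro_free (n := 3) (m := 1) hodd h2 hc rfl (three_free i hi0 hi) t (kap_injective hg hcomm), map_one])
      he
      (by
        have h5 : Nat.card U ∣ 2 ^ 3 :=
          (Subgroup.card_map_dvd (psi (F := F) 3 1 c).range (kap hg)).trans (card_psi_range c)
        exact Nat.Coprime.coprime_dvd_left h5 (Nat.Coprime.pow_left 3 hcop))
      (fun v => hcon _ hord v)
      (kap hg (psi 3 1 c t)) ⟨_, ⟨t, rfl⟩, rfl⟩
    exact MulEquiv.ext h4
  -- the involutions
  let e0 : ZMod 3 → F := Pi.single 0 1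
  have e00 : e0 0 = 1 := Pi.single_eq_same _ _
  have e01 : e0 1 = 0 := Pi.single_eq_of_ne (by decide) _
  have e02 : e0 2 = 0 := Pi.single_eq_of_ne (by decide) _
  have hDe0 : D F 3 c e0 = c := by
    rw [D_apply, sum_three, e00, e01, e02]
    ring
  have he0 : D F 3 c e0 ≠ 0 := by rw [hDe0]; exact hc
  let t0 : ZMod 3 → ℤˣ := fun i => if i = 2 then -1 else 1
  have hz : ((psi 3 1 c t0 : Om (D F 3 c)) : (ZMod 3 → F) ≃ₗ[F] (ZMod 3 → F)) = zv e0 he0 := by
    rw [psi_coe]
    apply LinearEquiv.ext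
    intro x
    funext i
    rw [ds_apply, zv_apply, hDe0, polar_D, sum_three]
    have hcc : c⁻¹ * c = 1 := inv_mul_cancel₀ hc
    simp only [Pi.neg_apply, Pi.sub_apply, Pi.smul_apply, smul_eq_mul, e00, e01, e02]
    obtain rfl | rfl | rfl : i = 0 ∨ i = 1 ∨ i = 2 := by
      revert i; decide
    · have : (t0 * (fun i : ZMod 3 => t0 (i + ((1 : ℕ) : ZMod 3)))⁻¹) 0 = 1 := by decide
      rw [this, e00, Units.val_one, Int.cast_one]
      linear_combination (-2 * x 0) * hcc
    · have : (t0 * (fun i : ZMod 3 => t0 (i + ((1 : ℕ) : ZMod 3)))⁻¹) 1 = -1 := by decide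
      rw [this, e01]
      simp
    · have : (t0 * (fun i : ZMod 3 => t0 (i + ((1 : ℕ) : ZMod 3)))⁻¹) 2 = -1 := by decide
      rw [this, e02]
      simp
  intro v hv hvc
  obtain ⟨g, hg, h5⟩ := exists_map h2 hc hDe0 hvc
  have hge : D F 3 c (g e0) ≠ 0 := by rw [mem_O.1 hg]; exact he0
  have h6 : zv v hv = zv (g e0) hge := by
    rcases h5 with h5 | h5
    · subst h5; rfl
    · have h7 : D F 3 c (-v) ≠ 0 := by rw [QuadraticMap.map_neg]; exact hv
      rw [← zv_neg hv h7]
      congr 1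
      exact h5.symm
  have h7 : zv v hv = ((kap hg (psi 3 1 c t0) : Om (D F 3 c)) : (ZMod 3 → F) ≃ₗ[F] (ZMod 3 → F)) := by
    rw [h6]
    show _ = g * ((psi 3 1 c t0 : Om (D F 3 c)) : (ZMod 3 → F) ≃ₗ[F] (ZMod 3 → F)) * g⁻¹
    rw [hz, zv_conj hg he0 hge]
  refine ⟨by rw [h7]; exact (kap hg (psi 3 1 c t0)).2, ?_⟩
  rw [← key g hg t0]
  congr 1
  exact Subtype.ext h7

/-- the half turns -/
theorem zv_coord {c : F} (hc : c ≠ 0) {w : ZMod 3 → F} (hw : D F 3 c w ≠ 0) (hwc : D F 3 c w = c) (x : ZMod 3 → F)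
    (i : ZMod 3) : zv w hw x i = -x i + 2 * (w 0 * x 0 + w 1 * x 1 + w 2 * x 2) * w i := by
  have hcc : c⁻¹ * c = 1 := inv_mul_cancel₀ hc
  rw [zv_apply, hwc, polar_D, sum_three]
  simp only [Pi.neg_apply, Pi.sub_apply, Pi.smul_apply, smul_eq_mul]
  linear_combination (2 * (w 0 * x 0 + w 1 * x 1 + w 2 * x 2) * w i) * hcc

/-- **A product of two half turns of large order.** -/
theorem exists_rot (h2 : (2 : F) ≠ 0) {c : F} (hc : c ≠ 0) {M : ℕ}
    (hM : (M = Fintype.card F - 1 ∧ Fintype.card F % 4 = 1) ∨ (M = Fintype.card F + 1 ∧ Fintype.card F % 4 = 3)) :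
    ∃ (v₀ v : ZMod 3 → F) (hv₀ : D F 3 c v₀ ≠ 0) (hv : D F 3 c v ≠ 0), D F 3 c v₀ = c ∧ D F 3 c v = c ∧
      ∀ k : ℕ, (zv v₀ hv₀ * zv v hv) ^ k = 1 → M ∣ 2 * k := by
  classical
  set q := Fintype.card F with hq
  have hq1 : 1 < q := Fintype.one_lt_card
  let E := AlgebraicClosure F
  let A : F →+* E := algebraMap F E
  have h2E : (2 : E) ≠ 0 := by
    intro h
    apply h2
    apply A.injective
    rw [map_ofNat, map_zero, h]
  obtain ⟨i, hi⟩ := IsAlgClosed.exists_pow_nat_eq (-1 : E) (n := 2) (by norm_num)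
  have hi0 : i ≠ 0 := by
    rintro rfl
    norm_num at hi
  have hi4 : i ^ 4 = 1 := by
    rw [show (4 : ℕ) = 2 * 2 from rfl, pow_mul, hi]; norm_num
  have hM0 : M ≠ 0 := by omega
  -- a root of unity
  obtain ⟨u, hu⟩ : ∃ u : E, IsPrimitiveRoot u M := by
    have hME : NeZero (M : E) := by
      constructor
      intro h
      have h3 : (M : F) = 0 := by
        apply A.injective
        rw [map_natCast, map_zero, h]
      have hq0 : (q : F) = 0 := by
        rw [hq]; exact FiniteField.cast_card_eq_zero F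
      rcases hM with ⟨h4, -⟩ | ⟨h4, -⟩
      · rw [h4, Nat.cast_sub hq1.le, hq0] at h3
        simp at h3
      · rw [h4, Nat.cast_add, hq0] at h3
        simp at h3
    exact HasEnoughRootsOfUnity.exists_primitiveRoot E M
  have hu0 : u ≠ 0 := by
    rintro rfl
    have := hu.pow_eq_one
    rw [zero_pow hM0] at this
    exact zero_ne_one this
  -- the Frobenius map
  have hfr : ∀ x y : E, (x + y) ^ q = x ^ q + y ^ q := by
    intro x y
    obtain ⟨p, hp⟩ := CharP.exists F
    have hpf : Fact p.Prime := ⟨CharP.char_is_prime F p⟩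
    obtain ⟨n, -, hn⟩ := FiniteField.card F p
    have : CharP E p := charP_of_injective_algebraMap A.injective p
    rw [hq, hn]
    exact add_pow_char_pow x y p _
  have hfn : ∀ x : E, (-x) ^ q = -(x ^ q) := by
    intro x
    have h3 := hfr x (-x)
    rw [add_neg_cancel, zero_pow (by omega)] at h3
    exact (neg_eq_of_add_eq_zero_right h3.symm).symm
  have h2q : (2 : E) ^ q = 2 := by
    have h3 : (2 : F) ^ q = 2 := FiniteField.pow_card 2
    have h4 := congrArg A h3
    rwa [map_pow, map_ofNat] at h4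
  have hcase : (u ^ q = u ∧ i ^ q = i) ∨ (u ^ q = u⁻¹ ∧ i ^ q = -i) := by
    rcases hM with ⟨h4, h5⟩ | ⟨h4, h5⟩
    · left
      constructor
      · have h3 : q = M + 1 := by omega
        rw [h3, pow_succ, hu.pow_eq_one, one_mul]
      · have h3 : q = 4 * (q / 4) + 1 := by omega
        rw [h3, pow_succ, pow_mul, hi4, one_pow, one_mul]
    · right
      constructor
      · exact eq_inv_of_mul_eq_one_left (by rw [← pow_succ, ← h4, hu.pow_eq_one])
      · have h3 : q = 4 * (q / 4) + 3 := by omega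
        rw [h3, pow_add, pow_mul, hi4, one_pow, one_mul, show (3 : ℕ) = 2 + 1 from rfl, pow_succ, hi]
        ring
  obtain ⟨a, ha⟩ : ∃ a : F, A a = (u + u⁻¹) * 2⁻¹ := by
    apply Cfsg.Agent.H390.PslSpec.mem_range_of_pow_card
    rw [← hq, mul_pow, hfr, inv_pow, inv_pow, h2q]
    rcases hcase with ⟨h3, -⟩ | ⟨h3, -⟩
    · rw [h3]
    · rw [h3, inv_inv, add_comm]
  obtain ⟨b, hb⟩ : ∃ b : F, A b = (u⁻¹ + -u) * 2⁻¹ * i⁻¹ := by
    apply Cfsg.Agent.H390.PslSpec.mem_range_of_pow_card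
    rw [← hq, mul_pow, mul_pow, hfr, inv_pow, inv_pow, inv_pow, h2q, hfn]
    rcases hcase with ⟨h3, h4⟩ | ⟨h3, h4⟩
    · rw [h3, h4]
    · rw [h3, h4, inv_inv, inv_neg]
      ring
  have hii : i * i⁻¹ = 1 := mul_inv_cancel₀ hi0
  have h2i : (2 : E) * 2⁻¹ = 1 := mul_inv_cancel₀ h2E
  have e1 : A a - i * A b = u := by
    rw [ha, hb]
    linear_combination (-(u⁻¹ - u) * 2⁻¹) * hii + u * h2i
  have e2 : A a + i * A b = u⁻¹ := by
    rw [ha, hb]
    linear_combination ((u⁻¹ - u) * 2⁻¹) * hii + u⁻¹ * h2i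
  have hab : a * a + b * b = 1 := by
    apply A.injective
    rw [map_add, map_mul, map_mul, map_one]
    have h3 : (A a - i * A b) * (A a + i * A b) = 1 := by rw [e1, e2, mul_inv_cancel₀ hu0]
    linear_combination h3 + A b * A b * hi
  let v₀ : ZMod 3 → F := ![0, 1, 0]
  let v : ZMod 3 → F := ![0, a, b]
  have hv₀c : D F 3 c v₀ = c := by
    rw [D_apply, sum_three]
    show c * (0 * 0 + 1 * 1 + 0 * 0) = c
    ring
  have hvc : D F 3 c v = c := by
    rw [D_apply, sum_three]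
    show c * (0 * 0 + a * a + b * b) = c
    linear_combination c * hab
  have hv₀ : D F 3 c v₀ ≠ 0 := by rw [hv₀c]; exact hc
  have hv : D F 3 c v ≠ 0 := by rw [hvc]; exact hc
  refine ⟨v₀, v, hv₀, hv, hv₀c, hvc, fun k hk => ?_⟩
  -- the functional
  have hR : ∀ x : ZMod 3 → F, A ((zv v₀ hv₀ * zv v hv) x 1) + i * A ((zv v₀ hv₀ * zv v hv) x 2) =
      u ^ 2 * (A (x 1) + i * A (x 2)) := by
    intro x
    have g1 : (zv v₀ hv₀ * zv v hv) x 1 = -(zv v hv x 1) + 2 * (0 * (zv v hv x 0) + 1 * (zv v hv x 1) +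
        0 * (zv v hv x 2)) * 1 := zv_coord hc hv₀ hv₀c _ 1
    have g2 : (zv v₀ hv₀ * zv v hv) x 2 = -(zv v hv x 2) + 2 * (0 * (zv v hv x 0) + 1 * (zv v hv x 1) +
        0 * (zv v hv x 2)) * 0 := zv_coord hc hv₀ hv₀c _ 2
    have g3 : zv v hv x 1 = -x 1 + 2 * (0 * x 0 + a * x 1 + b * x 2) * a := zv_coord hc hv hvc x 1
    have g4 : zv v hv x 2 = -x 2 + 2 * (0 * x 0 + a * x 1 + b * x 2) * b := zv_coord hc hv hvc x 2
    rw [g1, g2, g3, g4]
    simp only [map_add, map_mul, map_neg, map_zero, map_one, map_ofNat]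
    have hab' : A a * A a + A b * A b = 1 := by
      rw [← map_mul, ← map_mul, ← map_add, hab, map_one]
    rw [← e1]
    linear_combination (A (x 1) - i * A (x 2)) * hab' + (-(A b) * A b * (A (x 1) + i * A (x 2)) +
      2 * A a * A b * A (x 2)) * hi
  have hRk : ∀ (k : ℕ) (x : ZMod 3 → F), A (((zv v₀ hv₀ * zv v hv) ^ k) x 1) +
      i * A (((zv v₀ hv₀ * zv v hv) ^ k) x 2) = (u ^ 2) ^ k * (A (x 1) + i * A (x 2)) := by
    intro k
    induction k with
    | zero => intro x; simp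
    | succ k ih =>
      intro x
      rw [pow_succ]
      have h3 := ih ((zv v₀ hv₀ * zv v hv) x)
      rw [hR] at h3
      rw [pow_succ (u ^ 2), mul_assoc]
      exact h3
  have h3 := hRk k v₀
  rw [hk] at h3
  have h4 : A 1 + i * A 0 = (u ^ 2) ^ k * (A 1 + i * A 0) := h3
  rw [map_one, map_zero, mul_zero, add_zero, mul_one, ← pow_mul] at h4
  exact (hu.pow_eq_one_iff_dvd _).1 h4.symm

end Half

end Cfsg.Agent.R2.Spec.X4
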