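import Cfsg.Agent.R2.Spec.X4.LUp
import Cfsg.Agent.H970.Om7.Main
import Cfsg.Agent.H206.LowPlus

/-!
# Element orders of `Ω₇(q)`, any odd `q` (helper4)

`z = (q² + 1) / 2`.

* `om_ub` : the upper bounds;
* `om_pz`, `om_yz`, `om_sub`, `om_add` : elements of order `p z`, `y z` (`y` odd, `y ∣ q ± 1`), `(q³ - 1)/2`, `(q³ + 1)/2`.
-/

set_option autoImplicit false
set_option linter.unusedSectionVars false

namespace Cfsg.Agent.R2.Spec.X4.LO

open QuadraticMap Module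
open Cfsg.Agent.LieClassical.OrthCore Cfsg.Agent.LieClassical.OrthForms
open Cfsg.Agent.H160.QSpin Cfsg.Agent.H160.QDisc Cfsg.Agent.H160.QSplit
  Cfsg.Agent.H160.QReal Cfsg.Agent.H160.QModel Cfsg.Agent.H160.QFinal

theorem charP_of {F : Type*} [Field F] [Fintype F] {p m : ℕ} (hp : p.Prime) (hF : Fintype.card F = p ^ m) :
    CharP F p := by
  obtain ⟨r, hr⟩ := CharP.exists F
  haveI := hr
  have hrp : r.Prime := CharP.char_is_prime F r
  obtain ⟨n, hn, hc⟩ := FiniteField.card F r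
  have h1 : r ∣ p ^ m := by
    rw [← hF, hc]
    exact dvd_pow_self r n.ne_zero
  have h2 : r = p := (Nat.prime_dvd_prime_iff_eq hrp hp).1 (hrp.dvd_of_dvd_pow h1)
  subst h2
  exact hr

theorem two_ne_of {F : Type*} [Field F] {p : ℕ} [CharP F p] (hp : p.Prime) (hp2 : p ≠ 2) : (2 : F) ≠ 0 := by
  intro h
  have h3 := (CharP.cast_eq_zero_iff F p 2).1 (by exact_mod_cast h)
  exact hp2 ((Nat.prime_dvd_prime_iff_eq hp Nat.prime_two).1 h3)

section Rz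

variable {F : Type*} [Field F] [Fintype F] [DecidableEq F]

/-- the element of order `z` in the four-dimensional space of minus type -/
theorem rz_z (h2 : (2 : F) ≠ 0) : ∃ c : ℤ, (c = 1 ∨ c = -1) ∧ Rz F 4 c 1 ((Fintype.card F ^ 2 + 1) / 2) := by
  obtain ⟨e, he⟩ := card_odd h2
  have a1 := (arith he).1
  obtain ⟨c, s, hc, -, hs⟩ := rz_nonsplit (F := F) h2 (d := 2) (by norm_num)
  refine ⟨c, hc, ?_⟩
  have h0 : (Fintype.card F ^ 2 + 1) / 2 ≠ 0 := by omega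
  rw [a1] at hs
  have := hs.pow (by omega) (M := (Fintype.card F ^ 2 + 1) / 2) (Dvd.intro_left 2 rfl)
  rwa [Nat.mul_div_cancel _ (Nat.pos_of_ne_zero h0), pow_two, Int.units_mul_self] at this

/-- an element of odd order `y ∣ q ± 1` on a plane -/
theorem rz_y (h2 : (2 : F) ≠ 0) {y : ℕ} (hy : y % 2 = 1) (hd : y ∣ Fintype.card F - 1 ∨ y ∣ Fintype.card F + 1) :
    ∃ c : ℤ, (c = 1 ∨ c = -1) ∧ Rz F 2 c 1 y := by
  obtain ⟨e, he⟩ := card_odd h2
  have hq := Fintype.one_lt_card (α := F)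
  have hy0 : y ≠ 0 := by omega
  have key : ∀ {c : ℤ} {s : ℤˣ} {M : ℕ}, Rz F 2 c s M → M ≠ 0 → 2 ∣ M → y ∣ M → Rz F 2 c 1 y := by
    intro c s M h hM h2M hyM
    have h3 := h.pow hM hyM
    have h4 : 2 ∣ M / y := by
      obtain ⟨t, rfl⟩ := hyM
      rw [Nat.mul_div_cancel_left _ (Nat.pos_of_ne_zero hy0)]
      exact (Nat.Coprime.dvd_mul_left (by
        rw [Nat.coprime_two_left, Nat.odd_iff]
        exact hy)).1 h2M
    obtain ⟨t, ht⟩ := h4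
    rwa [ht, pow_mul, pow_two, Int.units_mul_self, one_pow] at h3
  rcases hd with hd | hd
  · obtain ⟨s, hs⟩ := rz_split (F := F) (d := 1) one_ne_zero
    rw [pow_one, pow_one] at hs
    exact ⟨_, Cfsg.Agent.H970.Om7.pm, key hs (by omega) ⟨e, by omega⟩ hd⟩
  · obtain ⟨c, s, hc, -, hs⟩ := rz_nonsplit (F := F) h2 (d := 1) one_ne_zero
    rw [pow_one] at hs
    exact ⟨c, hc, key hs (by omega) ⟨e + 1, by omega⟩ hd⟩

theorem cop_z {q y : ℕ} (hq : q % 2 = 1) (hd : y ∣ q - 1 ∨ y ∣ q + 1) : Nat.Coprime ((q ^ 2 + 1) / 2) y := by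
  obtain ⟨e, he⟩ : ∃ e, q = 2 * e + 1 := ⟨q / 2, by omega⟩
  obtain ⟨a1, a2, -⟩ := arith he
  have key : ∀ r : ℕ, r.Prime → r ∣ (q ^ 2 + 1) / 2 → r ∣ q ^ 2 - 1 → False := by
    intro r hr h1 h2
    have h3 : r ∣ q ^ 2 + 1 := by
      rw [a1]
      exact h1.mul_left 2
    have h4 : 1 ≤ q ^ 2 := Nat.one_le_pow _ _ (by omega)
    have h5 : r ∣ 2 := by
      have := Nat.dvd_sub h3 h2
      have h6 : q ^ 2 + 1 - (q ^ 2 - 1) = 2 := by omega
      rwa [h6] at this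
    have h6 : r = 2 := (Nat.prime_dvd_prime_iff_eq hr Nat.prime_two).1 h5
    subst h6
    rw [Nat.odd_iff] at a2
    omega
  have h1 : y ∣ q ^ 2 - 1 := by
    rcases hd with h | h
    · exact h.trans (Cfsg.Agent.H160.QRoots.sub_one_dvd q 2)
    · exact h.trans (Cfsg.Agent.H160.QRoots.add_one_dvd_sq q)
  exact Nat.coprime_of_dvd fun r hr h2 h3 => key r hr h2 (h3.trans h1)

theorem cop_p {q p m : ℕ} (hp : p.Prime) (hq : q = p ^ m) (hm : m ≠ 0) (hq2 : q % 2 = 1) :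
    Nat.Coprime ((q ^ 2 + 1) / 2) p := by
  obtain ⟨e, he⟩ : ∃ e, q = 2 * e + 1 := ⟨q / 2, by omega⟩
  have a1 := (arith he).1
  rw [Nat.coprime_comm, Nat.Prime.coprime_iff_not_dvd hp]
  intro h
  have h3 : p ∣ q ^ 2 + 1 := by
    rw [a1]
    exact h.mul_left 2
  have h4 : p ∣ q ^ 2 := by
    rw [hq]
    exact dvd_pow (dvd_pow_self p hm) (by norm_num)
  exact hp.one_lt.ne' (Nat.dvd_one.1 ((Nat.dvd_add_right h4).1 h3))

end Rz

section Odd

variable {F : Type*} [Field F] [Fintype F]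

/-- elements of `Ω₇(q)` -/
theorem om_of_rz [DecidableEq F] (h2 : (2 : F) ≠ 0) {n₁ n₂ : ℕ} {d : ℤ} {N : ℕ} (h : Rz F n₁ d 1 N)
    (hd : d = 1 ∨ d = -1) (hn : n₁ + n₂ = 7) (hn₂ : n₂ ≠ 0) :
    ∃ g : Cfsg.POmega F (Cfsg.quadFormOdd 3 F), orderOf g = N := by
  have h3 : dc (oddForm 3 F) = 1 ∨ dc (oddForm 3 F) = -1 := dc_cases (nondeg_oddForm 3 F h2)
  have h4 := Rz.add h2 h (rz_one h2 hn₂ (d := d * dc (oddForm 3 F)) (by
    rcases hd with rfl | rfl <;> rcases h3 with h3 | h3 <;> rw [h3] <;> simp))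
  have h5 : d * (d * dc (oddForm 3 F)) = dc (oddForm 3 F) := by
    rcases hd with rfl | rfl <;> ring
  rw [hn, h5, mul_one, Nat.lcm_one_right] at h4
  obtain ⟨g, hg, ho⟩ := transport_rz h2 (nondeg_oddForm 3 F h2) (by simp) h4
  exact (Cfsg.Agent.H970.Om7.range_seven h2 N).2 ⟨g, hg, ho⟩

variable {p m : ℕ} (hp : p.Prime) (hp2 : p ≠ 2) (hF : Fintype.card F = p ^ m)
include hp hp2 hF

theorem card_facts : m ≠ 0 ∧ Fintype.card F % 2 = 1 ∧ 3 ≤ Fintype.card F := by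
  have h1 := Fintype.one_lt_card (α := F)
  have hm : m ≠ 0 := by
    rintro rfl
    rw [pow_zero] at hF
    omega
  have h3 : Odd (Fintype.card F) := by
    rw [hF]
    exact (hp.odd_of_ne_two hp2).pow
  rw [Nat.odd_iff] at h3
  exact ⟨hm, h3, by omega⟩

/-- **the upper bounds** for `Ω₇(q)` -/
theorem om_ub (g : Cfsg.POmega F (Cfsg.quadFormOdd 3 F)) :
    orderOf g ∣ (Fintype.card F ^ 3 - 1) / 2 ∨ orderOf g ∣ (Fintype.card F ^ 3 + 1) / 2 ∨
      orderOf g ∣ (Fintype.card F ^ 2 + 1) / 2 * (Fintype.card F - 1) ∨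
      orderOf g ∣ (Fintype.card F ^ 2 + 1) / 2 * (Fintype.card F + 1) ∨
      orderOf g ∣ p * ((Fintype.card F ^ 2 + 1) / 2) ∨ orderOf g ∣ p * (Fintype.card F ^ 2 - 1) ∨
      (p ≤ 5 ∧ orderOf g ∣ p ^ 2 * (Fintype.card F ^ 2 - 1)) := by
  classical
  haveI := charP_of (F := F) hp hF
  haveI : Fact p.Prime := ⟨hp⟩
  have h2 := two_ne_of (F := F) hp hp2
  obtain ⟨h, hh, ho⟩ := (Cfsg.Agent.H970.Om7.range_seven h2 (orderOf g)).1 ⟨g, rfl⟩
  obtain ⟨N, hN, h3⟩ := up7 (p := p) h2 (nondeg_oddForm 3 F h2) (by simp) hh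
  have h4 := orderOf_dvd_of_pow_eq_one h3
  rw [ho] at h4
  rcases hN with h | h | h | h | h | h | ⟨h', h⟩ <;> rw [h] at h4
  · exact Or.inl h4
  · exact Or.inr (Or.inl h4)
  · exact Or.inr (Or.inr (Or.inl h4))
  · exact Or.inr (Or.inr (Or.inr (Or.inl h4)))
  · exact Or.inr (Or.inr (Or.inr (Or.inr (Or.inl h4))))
  · exact Or.inr (Or.inr (Or.inr (Or.inr (Or.inr (Or.inl h4)))))
  · exact Or.inr (Or.inr (Or.inr (Or.inr (Or.inr (Or.inr ⟨h', h4⟩)))))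

/-- elements of order `p z` on the seven-dimensional space -/
theorem rz_pz [DecidableEq F] : ∃ c : ℤ, (c = 1 ∨ c = -1) ∧ Rz F 7 c 1 (p * ((Fintype.card F ^ 2 + 1) / 2)) := by
  haveI := charP_of (F := F) hp hF
  haveI : Fact p.Prime := ⟨hp⟩
  have h2 := two_ne_of (F := F) hp hp2
  obtain ⟨hm, hq, -⟩ := card_facts hp hp2 hF
  obtain ⟨c, hc, hz⟩ := rz_z (F := F) h2
  have h3 := rz_jordan (F := F) (p := p) h2 (n := 3) (a := 0) (by decide) (by norm_num) (d := 1) (Or.inl rfl)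
  have h4 := Rz.add h2 hz h3
  rw [mul_one, mul_one, zero_add, pow_one, (cop_p hp hF hm hq).lcm_eq_mul, mul_comm] at h4
  exact ⟨c, hc, h4⟩

/-- elements of order `y z` on the six-dimensional space -/
theorem rz_yz [DecidableEq F] {y : ℕ} (hy : y % 2 = 1) (hd : y ∣ Fintype.card F - 1 ∨ y ∣ Fintype.card F + 1) :
    ∃ c : ℤ, (c = 1 ∨ c = -1) ∧ Rz F 6 c 1 (y * ((Fintype.card F ^ 2 + 1) / 2)) := by
  haveI := charP_of (F := F) hp hF
  have h2 := two_ne_of (F := F) hp hp2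
  obtain ⟨hm, hq, -⟩ := card_facts hp hp2 hF
  obtain ⟨c, hc, hz⟩ := rz_z (F := F) h2
  obtain ⟨c', hc', hy'⟩ := rz_y (F := F) h2 hy hd
  have h4 := Rz.add h2 hz hy'
  rw [mul_one, (cop_z hq hd).lcm_eq_mul, mul_comm _ y] at h4
  refine ⟨c * c', ?_, h4⟩
  rcases hc with rfl | rfl <;> rcases hc' with rfl | rfl <;> norm_num

/-- **order `p z`** in `Ω₇(q)` -/
theorem om_pz : ∃ g : Cfsg.POmega F (Cfsg.quadFormOdd 3 F), orderOf g = p * ((Fintype.card F ^ 2 + 1) / 2) := by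
  classical
  haveI := charP_of (F := F) hp hF
  haveI : Fact p.Prime := ⟨hp⟩
  have h2 := two_ne_of (F := F) hp hp2
  obtain ⟨hm, hq, -⟩ := card_facts hp hp2 hF
  obtain ⟨c, hc, hz⟩ := rz_z (F := F) h2
  have h3 : dc (oddForm 3 F) = 1 ∨ dc (oddForm 3 F) = -1 := dc_cases (nondeg_oddForm 3 F h2)
  have h4 := rz_jordan (F := F) (p := p) h2 (n := 3) (a := 0) (by decide) (by norm_num)
    (d := c * dc (oddForm 3 F)) (by
      rcases hc with rfl | rfl <;> rcases h3 with h3 | h3 <;> rw [h3] <;> simp)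
  have h5 := Rz.add h2 hz h4
  have h6 : c * (c * dc (oddForm 3 F)) = dc (oddForm 3 F) := by
    rcases hc with rfl | rfl <;> ring
  rw [h6, mul_one, zero_add, pow_one, (cop_p hp hF hm hq).lcm_eq_mul, mul_comm _ p] at h5
  obtain ⟨g, hg, ho⟩ := transport_rz h2 (nondeg_oddForm 3 F h2) (by simp) h5
  exact (Cfsg.Agent.H970.Om7.range_seven h2 _).2 ⟨g, hg, ho⟩

/-- **order `y z`** in `Ω₇(q)` -/
theorem om_yz {y : ℕ} (hy : y % 2 = 1) (hd : y ∣ Fintype.card F - 1 ∨ y ∣ Fintype.card F + 1) :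
    ∃ g : Cfsg.POmega F (Cfsg.quadFormOdd 3 F), orderOf g = y * ((Fintype.card F ^ 2 + 1) / 2) := by
  classical
  haveI := charP_of (F := F) hp hF
  have h2 := two_ne_of (F := F) hp hp2
  obtain ⟨c, hc, h⟩ := rz_yz hp hp2 hF hy hd
  exact om_of_rz h2 h hc (n₂ := 1) (by norm_num) one_ne_zero

theorem half_iff {M : ℕ} (hM : 2 ∣ M) (hM0 : M ≠ 0) (j : ℕ) : M ∣ 2 * j ↔ M / 2 ∣ j := by
  obtain ⟨t, rfl⟩ := hM
  rw [Nat.mul_div_cancel_left _ (by norm_num)]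
  exact Nat.mul_dvd_mul_iff_left (by norm_num)

theorem cube_facts : 2 ∣ Fintype.card F ^ 3 - 1 ∧ Fintype.card F ^ 3 - 1 ≠ 0 ∧ 2 ∣ Fintype.card F ^ 3 + 1 := by
  obtain ⟨hm, hq, h3⟩ := card_facts hp hp2 hF
  have h4 : Odd (Fintype.card F ^ 3) := (Nat.odd_iff.2 hq).pow
  have h5 : 3 ^ 3 ≤ Fintype.card F ^ 3 := Nat.pow_le_pow_left h3 3
  rw [Nat.odd_iff] at h4
  refine ⟨?_, ?_, ?_⟩ <;> omega

/-- **order `(q³ - 1)/2`** in `Ω₇(q)` -/
theorem om_sub : ∃ g : Cfsg.POmega F (Cfsg.quadFormOdd 3 F), orderOf g = (Fintype.card F ^ 3 - 1) / 2 := by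
  haveI := charP_of (F := F) hp hF
  have h2 := two_ne_of (F := F) hp hp2
  obtain ⟨c1, c2, -⟩ := cube_facts hp hp2 hF
  have h : Cfsg.Agent.H377.Elt F 3 1 (Fintype.card F ^ 3 - 1) :=
    Cfsg.Agent.H377.elt_tor_plus (by norm_num) (by rw [Nat.card_eq_fintype_card])
  exact Cfsg.Agent.H377.exists_odd_of_elt h2 le_rfl h (half_iff hp hp2 hF c1 c2)

/-- **order `(q³ + 1)/2`** in `Ω₇(q)` -/
theorem om_add : ∃ g : Cfsg.POmega F (Cfsg.quadFormOdd 3 F), orderOf g = (Fintype.card F ^ 3 + 1) / 2 := by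
  haveI := charP_of (F := F) hp hF
  have h2 := two_ne_of (F := F) hp hp2
  obtain ⟨-, -, c1⟩ := cube_facts hp hp2 hF
  have h : Cfsg.Agent.H377.Elt F 3 (-1) (Fintype.card F ^ 3 + 1) :=
    Cfsg.Agent.H377.elt_tor_minus (by norm_num) (by rw [Nat.card_eq_fintype_card])
  exact Cfsg.Agent.H377.exists_odd_of_elt h2 le_rfl h (half_iff hp hp2 hF c1 (by omega))

end Odd

end Cfsg.Agent.R2.Spec.X4.LO
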