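import Cfsg.Agent.R2.Spec.X4.LOm
import Cfsg.Agent.H951.B6.L3

/-!
# Element orders of `PΩ₈⁺(q)`, any odd `q` (helper4)

`z = (q² + 1) / 2`.

* `pl_ub` : the upper bounds;
* `pl_pz`, `pl_yz`, `pl_sub`, `pl_add`, `pl_quarter` : elements of order `p z`, `y z` (`y` odd, `y ∣ q ± 1`),
  `(q³ - 1)/2`, `(q³ + 1)/2`, `(q⁴ - 1)/4`.
-/

set_option autoImplicit false
set_option linter.unusedSectionVars false

namespace Cfsg.Agent.R2.Spec.X4.LO

open QuadraticMap Module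
open Cfsg.Agent.LieClassical.OrthCore Cfsg.Agent.LieClassical.OrthForms
open Cfsg.Agent.H160.QSpin Cfsg.Agent.H160.QDisc Cfsg.Agent.H160.QSplit
  Cfsg.Agent.H160.QReal Cfsg.Agent.H160.QModel Cfsg.Agent.H160.QFinal

variable {F : Type*} [Field F] [Fintype F]

theorem dc_plus4 [DecidableEq F] : dc (plusForm 4 F) = 1 := by
  rw [Cfsg.Agent.H951.B6.dc_plusForm]
  have h3 : quadraticChar F (-1) ^ 2 = 1 := quadraticChar_sq_one (neg_ne_zero.2 one_ne_zero)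
  rw [show (4 : ℕ) = 2 * 2 from rfl, pow_mul, h3, one_pow]

/-- elements of `PΩ₈⁺(q)` of odd order -/
theorem pl_of_rz [DecidableEq F] (h2 : (2 : F) ≠ 0) {n₁ n₂ : ℕ} {d : ℤ} {N : ℕ} (h : Rz F n₁ d 1 N) (hN : N % 2 = 1)
    (hd : d = 1 ∨ d = -1) (hn : n₁ + n₂ = 8) (hn₂ : n₂ ≠ 0) :
    ∃ g : Cfsg.POmega F (Cfsg.quadFormPlus 4 F), orderOf g = N := by
  have h4 := Rz.add h2 h (rz_one h2 hn₂ hd)
  have h5 : d * d = 1 := by
    rcases hd with rfl | rfl <;> norm_num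
  rw [hn, h5, mul_one, Nat.lcm_one_right] at h4
  obtain ⟨Q, g, hQ, hdc, hg, ho⟩ := h4
  obtain ⟨e, he⟩ := exists_iso h2 (nondeg_plusForm 4 F) hQ (by simp) (by rw [dc_plus4, hdc])
  rw [← coe_plusForm]
  have hpow : ∀ j : ℕ, (en g : Module.End F (Fin 8 → F)) ^ j = en (g ^ j) := fun j => (en_pow g j).symm
  have hgN : (en g : Module.End F (Fin 8 → F)) ^ N = 1 := by
    rw [hpow, ← ho, pow_orderOf_eq_one]
    rfl
  refine Cfsg.Agent.H377.exists_of_isom (plusForm 4 F) (nondeg_plusForm 4 F) (by simp) (⇑Q) e 1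
    one_ne_zero (fun u => by rw [he, one_mul]) (en g) (fun v => hg.1 v) N fun j => ?_
  have hj : (en g : Module.End F (Fin 8 → F)) ^ (2 * j) = 1 ↔ N ∣ j := by
    rw [hpow, ← (Nat.Coprime.symm (Nat.coprime_two_left.2 (Nat.odd_iff.2 hN))).dvd_mul_left, ← ho,
      orderOf_dvd_iff_pow_eq_one]
    constructor
    · intro h
      exact en_inj h
    · intro h
      rw [h]
      rfl
  rw [← hj]
  constructor
  · rintro (h | h)
    · exact h
    · exact Cfsg.Agent.H377.neg_one_pow_ne (Nat.odd_iff.2 hN) hgN _ h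
  · exact Or.inl

variable {p m : ℕ} (hp : p.Prime) (hp2 : p ≠ 2) (hF : Fintype.card F = p ^ m)
include hp hp2 hF

/-- **the upper bounds** for `PΩ₈⁺(q)` -/
theorem pl_ub (g : Cfsg.POmega F (Cfsg.quadFormPlus 4 F)) :
    orderOf g ∣ (Fintype.card F ^ 3 - 1) / 2 ∨ orderOf g ∣ (Fintype.card F ^ 3 + 1) / 2 ∨
      orderOf g ∣ (Fintype.card F ^ 4 - 1) / 4 ∨
      orderOf g ∣ p * ((Fintype.card F ^ 2 + 1) / 2) ∨ orderOf g ∣ p * (Fintype.card F ^ 2 - 1) ∨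
      (p ≤ 5 ∧ orderOf g ∣ p ^ 2 * (Fintype.card F ^ 2 - 1)) := by
  classical
  haveI := charP_of (F := F) hp hF
  haveI : Fact p.Prime := ⟨hp⟩
  have h2 := two_ne_of (F := F) hp hp2
  have hQ : Nondeg (plusForm 4 F) := nondeg_plusForm 4 F
  have key : ∀ g : Cfsg.POmega F ⇑(plusForm 4 F), ∃ N, LstP p (Fintype.card F) N ∧ orderOf g ∣ N := by
    intro g
    obtain ⟨x, rfl⟩ := QuotientGroup.mk_surjective g
    have hx := el_lin h2 hQ (by simp) x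
    obtain ⟨N, hN, h3⟩ := up8 (p := p) h2 hQ (by simp) dc_plus4 hx
    exact ⟨N, hN, Cfsg.Agent.H951.B6.orderOf_dvd_of_lin _ x h3⟩
  rw [coe_plusForm] at key
  obtain ⟨N, hN, h3⟩ := key g
  rcases hN with h | h | h | h | h | ⟨h', h⟩ <;> rw [h] at h3
  · exact Or.inl h3
  · exact Or.inr (Or.inl h3)
  · exact Or.inr (Or.inr (Or.inl h3))
  · exact Or.inr (Or.inr (Or.inr (Or.inl h3)))
  · exact Or.inr (Or.inr (Or.inr (Or.inr (Or.inl h3))))
  · exact Or.inr (Or.inr (Or.inr (Or.inr (Or.inr ⟨h', h3⟩))))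

theorem z_odd : (Fintype.card F ^ 2 + 1) / 2 % 2 = 1 := by
  classical
  haveI := charP_of (F := F) hp hF
  have h2 := two_ne_of (F := F) hp hp2
  obtain ⟨e, he⟩ := card_odd h2
  rw [← Nat.odd_iff]
  exact (arith he).2.1

/-- **order `p z`** in `PΩ₈⁺(q)` -/
theorem pl_pz : ∃ g : Cfsg.POmega F (Cfsg.quadFormPlus 4 F), orderOf g = p * ((Fintype.card F ^ 2 + 1) / 2) := by
  classical
  haveI := charP_of (F := F) hp hF
  have h2 := two_ne_of (F := F) hp hp2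
  obtain ⟨c, hc, h⟩ := rz_pz hp hp2 hF
  refine pl_of_rz h2 h ?_ hc (n₂ := 1) (by norm_num) one_ne_zero
  have h3 := z_odd hp hp2 hF
  rw [← Nat.odd_iff] at h3 ⊢
  exact (hp.odd_of_ne_two hp2).mul h3

/-- **order `y z`** in `PΩ₈⁺(q)` -/
theorem pl_yz {y : ℕ} (hy : y % 2 = 1) (hd : y ∣ Fintype.card F - 1 ∨ y ∣ Fintype.card F + 1) :
    ∃ g : Cfsg.POmega F (Cfsg.quadFormPlus 4 F), orderOf g = y * ((Fintype.card F ^ 2 + 1) / 2) := by
  classical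
  haveI := charP_of (F := F) hp hF
  have h2 := two_ne_of (F := F) hp hp2
  obtain ⟨c, hc, h⟩ := rz_yz hp hp2 hF hy hd
  refine pl_of_rz h2 h ?_ hc (n₂ := 2) (by norm_num) two_ne_zero
  have h3 := z_odd hp hp2 hF
  rw [← Nat.odd_iff] at h3 hy ⊢
  exact hy.mul h3

/-- **order `(q³ - 1)/2`** in `PΩ₈⁺(q)` -/
theorem pl_sub : ∃ g : Cfsg.POmega F (Cfsg.quadFormPlus 4 F), orderOf g = (Fintype.card F ^ 3 - 1) / 2 := by
  obtain ⟨c1, -, -⟩ := cube_facts hp hp2 hF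
  have h : Cfsg.Agent.H377.Elt F 3 1 (Fintype.card F ^ 3 - 1) :=
    Cfsg.Agent.H377.elt_tor_plus (by norm_num) (by rw [Nat.card_eq_fintype_card])
  have h' := h.add_two (n₂ := 1) le_rfl (ε₂ := 1) (Or.inl rfl) (even_iff_two_dvd.2 c1)
  rw [mul_one] at h'
  exact h'.plus le_rfl

/-- **order `(q³ + 1)/2`** in `PΩ₈⁺(q)` -/
theorem pl_add : ∃ g : Cfsg.POmega F (Cfsg.quadFormPlus 4 F), orderOf g = (Fintype.card F ^ 3 + 1) / 2 := by
  obtain ⟨-, -, c1⟩ := cube_facts hp hp2 hF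
  have h : Cfsg.Agent.H377.Elt F 3 (-1) (Fintype.card F ^ 3 + 1) :=
    Cfsg.Agent.H377.elt_tor_minus (by norm_num) (by rw [Nat.card_eq_fintype_card])
  have h' := h.add_two (n₂ := 1) le_rfl (ε₂ := -1) (Or.inr rfl) (even_iff_two_dvd.2 c1)
  rw [show (-1 : ℤ) * -1 = 1 by norm_num] at h'
  exact h'.plus le_rfl

/-- **order `(q⁴ - 1)/4`** in `PΩ₈⁺(q)` -/
theorem pl_quarter : ∃ g : Cfsg.POmega F (Cfsg.quadFormPlus 4 F), orderOf g = (Fintype.card F ^ 4 - 1) / 4 := by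
  classical
  haveI := charP_of (F := F) hp hF
  have h2 := two_ne_of (F := F) hp hp2
  obtain ⟨e, he⟩ := card_odd h2
  obtain ⟨-, -, -, -, -, -, -, -, -, -, b7, -⟩ := arith he
  refine Cfsg.Agent.H206.LowPlus.elt_quarter h2 le_rfl ?_
  have h : Cfsg.Agent.H377.Elt F 4 1 (Fintype.card F ^ 4 - 1) :=
    Cfsg.Agent.H377.elt_tor_plus (by norm_num) (by rw [Nat.card_eq_fintype_card])
  rw [mul_comm, b7]
  exact h

end Cfsg.Agent.R2.Spec.X4.LO
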