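import Cfsg.Agent.R2.Spec.X4.LRt
import Cfsg.Agent.H951.B6.Up8

/-!
# Upper bounds for the orders of isometries of trivial spinor sign in dimensions 7 and 8, any odd `q` (helper4)

`q = |F|`, `z = (q² + 1) / 2`.
-/

set_option autoImplicit false
set_option linter.unusedSectionVars false

namespace Cfsg.Agent.R2.Spec.X4.LO

open QuadraticMap Module
open Cfsg.Agent.LieClassical.OrthCore Cfsg.Agent.H160.QSpin Cfsg.Agent.H160.QDisc Cfsg.Agent.H160.QSplit
  Cfsg.Agent.H160.QMain Cfsg.Agent.H160.QUpper Cfsg.Agent.H160.QRoots Cfsg.Agent.H160.QChar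
open Cfsg.Agent.H951.B6 (psi_orb split_three psi_pow phi_pow dc_zero exists_sign neg_neg_mul neg_mul_odd eq_zero_dim
  finrank_fin)

/-- the exponents in dimension seven -/
def LstO (p q N : ℕ) : Prop :=
  N = (q ^ 3 - 1) / 2 ∨ N = (q ^ 3 + 1) / 2 ∨ N = (q ^ 2 + 1) / 2 * (q - 1) ∨ N = (q ^ 2 + 1) / 2 * (q + 1) ∨
    N = p * ((q ^ 2 + 1) / 2) ∨ N = p * (q ^ 2 - 1) ∨ (p ≤ 5 ∧ N = p ^ 2 * (q ^ 2 - 1))

/-- the exponents in dimension eight -/
def LstP (p q N : ℕ) : Prop :=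
  N = (q ^ 3 - 1) / 2 ∨ N = (q ^ 3 + 1) / 2 ∨ N = (q ^ 4 - 1) / 4 ∨
    N = p * ((q ^ 2 + 1) / 2) ∨ N = p * (q ^ 2 - 1) ∨ (p ≤ 5 ∧ N = p ^ 2 * (q ^ 2 - 1))

theorem exists_c {p : ℕ} (hp : p.Prime) (hp2 : p ≠ 2) : ∃ c : ℕ, 7 ≤ p ^ c ∧ (c = 1 ∨ (c = 2 ∧ p ≤ 5)) := by
  have h2 := hp.two_le
  by_cases h7 : 7 ≤ p
  · exact ⟨1, by rw [pow_one]; exact h7, Or.inl rfl⟩
  · have h6 : p ≠ 6 := by
      rintro rfl
      revert hp
      decide
    have h3 : 3 ≤ p := by omega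
    exact ⟨2, by nlinarith, Or.inr ⟨rfl, by omega⟩⟩

variable {F : Type*} [Field F] [Fintype F] [DecidableEq F] {p : ℕ} [hp : Fact p.Prime] [CharP F p]

include hp in
theorem p_ne_two (h2 : (2 : F) ≠ 0) : p ≠ 2 := by
  rintro rfl
  apply h2
  have := CharP.cast_eq_zero F 2
  exact_mod_cast this

theorem card_odd (h2 : (2 : F) ≠ 0) : ∃ e, Fintype.card F = 2 * e + 1 := by
  obtain ⟨e, he⟩ := card_odd_eq h2
  exact ⟨e, he⟩

section Pieces

variable {n : ℕ} {Q : QuadraticForm F (Fin n → F)} {k : (Fin n → F) ≃ₗ[F] (Fin n → F)}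

include hp in
open Classical in
/-- exponents of the part without eigenvalues `±1` -/
theorem pow_of_bd {M N c : ℕ} (hB : Bd (rts (en k)) M N) (hc : M ≤ p ^ c) : k ^ (N * p ^ c) = 1 := by
  apply en_inj
  rw [en_pow]
  exact pow_eq_one_of_bd hB hc

open Classical in
theorem pow_of_bd_one {N : ℕ} (hB : Bd (rts (en k)) 1 N) : k ^ N = 1 := by
  obtain ⟨p, hpF⟩ := CharP.exists F
  have hp : Fact p.Prime := ⟨CharP.char_is_prime F p⟩
  simpa using pow_of_bd (p := p) (c := 0) hB (by simp)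

include hp in
/-- unipotent parts -/
theorem unip_pow' (h2 : (2 : F) ≠ 0) (hQ : Nondeg Q) (hu : k ∈ O Q) (hnil : (en k - 1) ^ n = 0) {c : ℕ}
    (h : n ≤ p ^ c ∨ (Even n ∧ n ≤ p ^ c + 1)) : k ^ (p ^ c) = 1 := by
  rcases h with h | ⟨hev, h⟩
  · exact unip_pow (p := p) hnil h
  · rcases Nat.eq_zero_or_pos n with h0 | h0
    · exact eq_zero_dim h0 _ _
    · obtain ⟨m, rfl⟩ : ∃ m, n = m + 1 := ⟨n - 1, by omega⟩
      have hm : Odd m := by
        rw [← Nat.not_even_iff_odd]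
        intro hm
        exact (Nat.not_even_iff_odd.2 hm.add_one) hev
      exact unip_pow (p := p) (unip_even h2 hQ hu (by simp) hm hnil) (by omega)

/-- unipotent isometries of a line or a plane are trivial -/
theorem unip_one (h2 : (2 : F) ≠ 0) (hQ : Nondeg Q) (hu : k ∈ O Q) (hnil : (en k - 1) ^ n = 0) (hn : n ≤ 2) : k = 1 := by
  obtain ⟨p, hpF⟩ := CharP.exists F
  have hp : Fact p.Prime := ⟨CharP.char_is_prime F p⟩
  have h : n ≤ p ^ 0 ∨ (Even n ∧ n ≤ p ^ 0 + 1) := by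
    rw [pow_zero]
    rcases Nat.lt_or_ge n 2 with h | h
    · left; omega
    · right
      obtain rfl : n = 2 := by omega
      exact ⟨even_two, le_refl _⟩
  simpa using unip_pow' (p := p) h2 hQ hu hnil h

/-- four dimensions, trivial spinor sign -/
theorem key4 (h2 : (2 : F) ≠ 0) (hp3 : 3 ≤ p) (hQ : Nondeg Q) (hn : n = 4) (hk : El Q 1 k)
    (h1 : ∀ x, k x = x → x = 0) (hm : ∀ x, k x = -x → x = 0) :
    k ^ ((Fintype.card F ^ 2 + 1) / 2) = 1 ∨ k ^ ((Fintype.card F ^ 2 - 1) * p) = 1 := by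
  classical
  obtain ⟨e, he⟩ := card_odd h2
  have hI := inv_rts hQ hk.1 h1 hm
  have hc := (card_rts (en k)).trans ((finrank_fin n).trans hn)
  rcases rt4 (frob_inj F) Fintype.card_pos hI hc with ⟨μ, hμ, hμi, hR⟩ | hB
  · left
    have hps := psi_pow h2 hQ (by rw [finrank_fin, hn]; decide) hk hm he
    have h3 := (psi_orb (frob_inj F) (frob_sub F) he hμ).2 hμi
    rw [← hR, hps] at h3
    have h4 := inv_eq_one.1 h3.symm
    apply pow_of_bd_one
    refine ⟨fun x => ?_, fun x hx => ?_⟩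
    · rw [hR]
      exact Multiset.nodup_iff_count_le_one.1 (orb _ μ 2).nodup x
    · rw [hR] at hx
      exact ex_orb hx h4
  · right
    have := pow_of_bd (p := p) (c := 1) hB (by rw [pow_one]; omega)
    rwa [pow_one] at this

/-- six dimensions, trivial spinor sign -/
theorem key6 (h2 : (2 : F) ≠ 0) (hp3 : 3 ≤ p) (hQ : Nondeg Q) (hn : n = 6) (hk : El Q 1 k)
    (h1 : ∀ x, k x = x → x = 0) (hm : ∀ x, k x = -x → x = 0) :
    ∃ N, (N = (Fintype.card F ^ 3 - 1) / 2 ∨ N = (Fintype.card F ^ 3 + 1) / 2 ∨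
      N = (Fintype.card F ^ 2 + 1) / 2 * (Fintype.card F - 1) ∨
      N = (Fintype.card F ^ 2 + 1) / 2 * (Fintype.card F + 1) ∨ N = p * (Fintype.card F ^ 2 - 1)) ∧ k ^ N = 1 := by
  classical
  obtain ⟨e, he⟩ := card_odd h2
  have hI := inv_rts hQ hk.1 h1 hm
  have hc := (card_rts (en k)).trans ((finrank_fin n).trans hn)
  have hps := psi_pow h2 hQ (by rw [finrank_fin, hn]; decide) hk hm he
  rcases rt6 (frob_inj F) Fintype.card_pos he (frob_sub F) hI hc hps with hB | hB | hB | hB | hB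
  · exact ⟨_, Or.inl rfl, pow_of_bd_one hB⟩
  · exact ⟨_, Or.inr (Or.inl rfl), pow_of_bd_one hB⟩
  · exact ⟨_, Or.inr (Or.inr (Or.inl rfl)), pow_of_bd_one hB⟩
  · exact ⟨_, Or.inr (Or.inr (Or.inr (Or.inl rfl))), pow_of_bd_one hB⟩
  · refine ⟨_, Or.inr (Or.inr (Or.inr (Or.inr rfl))), ?_⟩
    have := pow_of_bd (p := p) (c := 1) hB (by rw [pow_one]; omega)
    rwa [pow_one, mul_comm] at this

/-- two dimensions -/
theorem key2 (hQ : Nondeg Q) (hn : n = 2) (hk : k ∈ O Q) (h1 : ∀ x, k x = x → x = 0) (hm : ∀ x, k x = -x → x = 0) :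
    k ^ (Fintype.card F ^ 2 - 1) = 1 := by
  classical
  have hI := inv_rts hQ hk h1 hm
  have hc := (card_rts (en k)).trans ((finrank_fin n).trans hn)
  rcases one (frob_inj F) Fintype.card_pos hI hc with hB | hB
  · exact pow_dvd_one (pow_of_bd_one hB) (sub_one_dvd _ 2)
  · exact pow_dvd_one (pow_of_bd_one hB) (add_one_dvd_sq _)

/-- four dimensions -/
theorem key4' (hp3 : 3 ≤ p) (hQ : Nondeg Q) (hn : n = 4) (hk : k ∈ O Q) (h1 : ∀ x, k x = x → x = 0)
    (hm : ∀ x, k x = -x → x = 0) : k ^ (Fintype.card F ^ 2 + 1) = 1 ∨ k ^ ((Fintype.card F ^ 2 - 1) * p) = 1 := by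
  classical
  have hI := inv_rts hQ hk h1 hm
  have hc := (card_rts (en k)).trans ((finrank_fin n).trans hn)
  rcases two (frob_inj F) Fintype.card_pos hI hc with hB | hB
  · exact Or.inl (pow_of_bd_one hB)
  · right
    have := pow_of_bd (p := p) (c := 1) hB (by rw [pow_one]; omega)
    rwa [pow_one] at this

theorem neg_no_one (hm : ∀ x, k x = -x → x = 0) :
    ∀ x, (LinearEquiv.neg F * k : (Fin n → F) ≃ₗ[F] (Fin n → F)) x = x → x = 0 := fun x hx => hm x (by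
  have h3 : -(k x) = x := hx
  rw [← h3, neg_neg]
  exact congrArg k h3)

theorem neg_no_neg (h1 : ∀ x, k x = x → x = 0) :
    ∀ x, (LinearEquiv.neg F * k : (Fin n → F) ≃ₗ[F] (Fin n → F)) x = -x → x = 0 := fun x hx => h1 x (by
  have h3 : -(k x) = -x := hx
  exact neg_injective h3)

end Pieces

section

variable {V : Type*} [AddCommGroup V] [Module F V] [FiniteDimensional F V] [Finite V] {Q : QuadraticForm F V}

include hp in
/-- **dimension seven** -/
theorem up7 (h2 : (2 : F) ≠ 0) (hQ : Nondeg Q) (hV : finrank F V = 7) {g : V ≃ₗ[F] V} (hg : El Q 1 g) :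
    ∃ N, LstO p (Fintype.card F) N ∧ g ^ N = 1 := by
  classical
  have hp2 := p_ne_two (F := F) (p := p) h2
  have hp3 : 3 ≤ p := by
    have := hp.out.two_le
    omega
  obtain ⟨e, he⟩ := card_odd h2
  obtain ⟨-, -, -, -, -, -, a1, -, -, -, -, e2⟩ := arith he
  obtain ⟨n, a, b, Q₀, Q₁, Q₂, g₀, u₁, u₂, s, hdim, hQ₀, hQ₁, hQ₂, hdcs, hs, hg₀, hu₁, hu₂, hno, hnm, hnil₁, hnil₂,
    hen, heb, hone, hneg⟩ := split_three (p := p) h2 hQ hg
  rw [hV] at hdim
  -- the remaining cases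
  have rest : ∀ {c : ℕ}, g₀ ^ ((Fintype.card F ^ 2 - 1) * p ^ c) = 1 → u₁ ^ (p ^ c) = 1 → u₂ ^ (p ^ c) = 1 →
      g ^ (p ^ c * (Fintype.card F ^ 2 - 1)) = 1 := by
    intro c h0 h1 h3
    refine hone _ (by rw [mul_comm]; exact h0) (pow_dvd_one h1 (Dvd.intro _ rfl)) ?_
    refine pow_dvd_one (neg_mul_pow h3) ?_
    rw [mul_comm 2]
    exact Nat.mul_dvd_mul_left _ e2
  have lst : ∀ {c : ℕ}, (c = 1 ∨ (c = 2 ∧ p ≤ 5)) → LstO p (Fintype.card F) (p ^ c * (Fintype.card F ^ 2 - 1)) := by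
    rintro c (rfl | ⟨rfl, h⟩)
    · rw [pow_one]
      exact Or.inr (Or.inr (Or.inr (Or.inr (Or.inr (Or.inl rfl)))))
    · exact Or.inr (Or.inr (Or.inr (Or.inr (Or.inr (Or.inr ⟨h, rfl⟩)))))
  have hn : n = 0 ∨ n = 2 ∨ n = 4 ∨ n = 6 := by
    obtain ⟨t, ht⟩ := hen
    omega
  obtain ⟨c, hc7, hc⟩ := exists_c hp.out hp2
  rcases hn with hn | hn | hn | hn
  · refine ⟨_, lst hc, rest (eq_zero_dim hn _ _) ?_ ?_⟩
    · exact unip_pow' h2 hQ₁ hu₁ hnil₁ (Or.inl (by omega))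
    · exact unip_pow' h2 hQ₂ hu₂ hnil₂ (Or.inl (by omega))
  · refine ⟨_, lst hc, rest (pow_dvd_one (key2 hQ₀ hn hg₀.1 hno hnm) (Dvd.intro _ rfl)) ?_ ?_⟩
    · exact unip_pow' h2 hQ₁ hu₁ hnil₁ (Or.inl (by omega))
    · exact unip_pow' h2 hQ₂ hu₂ hnil₂ (Or.inl (by omega))
  · have hab : (a = 3 ∧ b = 0) ∨ (a = 1 ∧ b = 2) := by
      obtain ⟨t, ht⟩ := heb
      omega
    have r1 : g₀ ^ ((Fintype.card F ^ 2 - 1) * p) = 1 →
        ∃ N, LstO p (Fintype.card F) N ∧ g ^ N = 1 := by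
      intro h
      refine ⟨_, lst (Or.inl rfl), rest (by rw [pow_one]; exact h) ?_ ?_⟩
      · exact unip_pow' h2 hQ₁ hu₁ hnil₁ (Or.inl (by rw [pow_one]; omega))
      · exact unip_pow' h2 hQ₂ hu₂ hnil₂ (Or.inl (by rw [pow_one]; omega))
    rcases hab with ⟨ha, hb⟩ | ⟨ha, hb⟩
    · have hs1 : s = 1 := by
        subst hb
        rw [dc_zero] at hs
        exact Units.ext hs
      rw [hs1] at hg₀
      rcases key4 h2 hp3 hQ₀ hn hg₀ hno hnm with h | h
      · refine ⟨_, Or.inr (Or.inr (Or.inr (Or.inr (Or.inl rfl)))), hone _ (pow_dvd_one h (Dvd.intro_left _ rfl)) ?_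
          (eq_zero_dim hb _ _)⟩
        have := unip_pow' (p := p) (c := 1) h2 hQ₁ hu₁ hnil₁ (Or.inl (by rw [pow_one]; omega))
        rw [pow_one] at this
        exact pow_dvd_one this (Dvd.intro _ rfl)
      · exact r1 h
    · rcases key4' hp3 hQ₀ hn hg₀.1 hno hnm with h | h
      · refine ⟨_, Or.inr (Or.inr (Or.inl rfl)), hone _ (pow_dvd_one h a1) ?_ ?_⟩
        · rw [unip_one h2 hQ₁ hu₁ hnil₁ (by omega), one_pow]
        · rw [unip_one h2 hQ₂ hu₂ hnil₂ (by omega)]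
          refine pow_dvd_one (m := 2) ?_ ?_
          · simpa using neg_mul_pow (V := Fin b → F) (F := F) (g := 1) (m := 1) (one_pow 1)
          · refine dvd_trans ?_ a1
            exact ⟨_, (arith he).1⟩
      · exact r1 h
  · have ha : a ≤ 1 := by
      obtain ⟨t, ht⟩ := heb
      omega
    have hb : b = 0 := by
      obtain ⟨t, ht⟩ := heb
      omega
    have hs1 : s = 1 := by
      subst hb
      rw [dc_zero] at hs
      exact Units.ext hs
    rw [hs1] at hg₀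
    obtain ⟨N, hN, hk⟩ := key6 h2 hp3 hQ₀ hn hg₀ hno hnm
    refine ⟨N, ?_, hone _ hk ?_ (eq_zero_dim hb _ _)⟩
    · rcases hN with h | h | h | h | h
      · exact Or.inl h
      · exact Or.inr (Or.inl h)
      · exact Or.inr (Or.inr (Or.inl h))
      · exact Or.inr (Or.inr (Or.inr (Or.inl h)))
      · exact Or.inr (Or.inr (Or.inr (Or.inr (Or.inr (Or.inl h)))))
    · rw [unip_one h2 hQ₁ hu₁ hnil₁ (by omega), one_pow]

include hp in
/-- **dimension eight, plus type** -/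
theorem up8 (h2 : (2 : F) ≠ 0) (hQ : Nondeg Q) (hV : finrank F V = 8) (hdc : dc Q = 1) {g : V ≃ₗ[F] V}
    (hg : El Q 1 g) : ∃ N, LstP p (Fintype.card F) N ∧ (g ^ N = 1 ∨ g ^ N = LinearEquiv.neg F) := by
  classical
  have hp2 := p_ne_two (F := F) (p := p) h2
  have hp3 : 3 ≤ p := by
    have := hp.out.two_le
    omega
  have hpo : Odd p := hp.out.odd_of_ne_two hp2
  obtain ⟨e, he⟩ := card_odd h2
  obtain ⟨b1, b2, -, b4, -, -, a1, -, b5, b6, b7, e2⟩ := arith he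
  obtain ⟨n, a, b, Q₀, Q₁, Q₂, g₀, u₁, u₂, s, hdim, hQ₀, hQ₁, hQ₂, hdcs, hs, hg₀, hu₁, hu₂, hno, hnm, hnil₁, hnil₂,
    hen, heb, hone, hneg⟩ := split_three (p := p) h2 hQ hg
  rw [hV] at hdim
  have hea : Even a := by
    obtain ⟨n', hn'⟩ := hen
    obtain ⟨b', hb'⟩ := heb
    exact ⟨4 - n' - b', by omega⟩
  have rest : ∀ {c : ℕ}, g₀ ^ ((Fintype.card F ^ 2 - 1) * p ^ c) = 1 → u₁ ^ (p ^ c) = 1 → u₂ ^ (p ^ c) = 1 →
      g ^ (p ^ c * (Fintype.card F ^ 2 - 1)) = 1 := by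
    intro c h0 h1 h3
    refine hone _ (by rw [mul_comm]; exact h0) (pow_dvd_one h1 (Dvd.intro _ rfl)) ?_
    refine pow_dvd_one (neg_mul_pow h3) ?_
    rw [mul_comm 2]
    exact Nat.mul_dvd_mul_left _ e2
  have lst : ∀ {c : ℕ}, (c = 1 ∨ (c = 2 ∧ p ≤ 5)) → LstP p (Fintype.card F) (p ^ c * (Fintype.card F ^ 2 - 1)) := by
    rintro c (rfl | ⟨rfl, h⟩)
    · rw [pow_one]
      exact Or.inr (Or.inr (Or.inr (Or.inr (Or.inl rfl))))
    · exact Or.inr (Or.inr (Or.inr (Or.inr (Or.inr ⟨h, rfl⟩))))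
  have hn8 : n = 0 ∨ n = 2 ∨ n = 4 ∨ n = 6 ∨ n = 8 := by
    obtain ⟨t, ht⟩ := hen
    omega
  obtain ⟨c, hc7, hc⟩ := exists_c hp.out hp2
  -- passing to `-g₀`
  have hk0 : a = 0 → El Q₀ 1 (LinearEquiv.neg F * g₀) := by
    intro ha
    have hdc1 : dc Q₁ = 1 := by
      subst ha
      exact dc_zero Q₁
    obtain ⟨s₀, hs₀⟩ := exists_sign (dc_cases hQ₀)
    have hss : s₀ * s = 1 := by
      apply Units.ext
      rw [Units.val_mul, hs₀, hs, Units.val_one]
      rw [hdc, hdc1, mul_one] at hdcs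
      exact hdcs.symm
    have := (el_neg h2 hQ₀ (by rw [finrank_fin]; exact hen) hs₀).mul hg₀
    rwa [hss] at this
  have hs1 : b = 0 → s = 1 := by
    intro hb
    subst hb
    rw [dc_zero] at hs
    exact Units.ext hs
  rcases hn8 with hn | hn | hn | hn | hn
  · refine ⟨_, lst hc, Or.inl (rest (eq_zero_dim hn _ _) ?_ ?_)⟩
    · exact unip_pow' h2 hQ₁ hu₁ hnil₁ (Or.inr ⟨hea, by omega⟩)
    · exact unip_pow' h2 hQ₂ hu₂ hnil₂ (Or.inr ⟨heb, by omega⟩)
  · refine ⟨_, lst hc, Or.inl (rest (pow_dvd_one (key2 hQ₀ hn hg₀.1 hno hnm) (Dvd.intro _ rfl)) ?_ ?_)⟩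
    · exact unip_pow' h2 hQ₁ hu₁ hnil₁ (Or.inr ⟨hea, by omega⟩)
    · exact unip_pow' h2 hQ₂ hu₂ hnil₂ (Or.inr ⟨heb, by omega⟩)
  · -- two pairs
    have r1 : g₀ ^ ((Fintype.card F ^ 2 - 1) * p) = 1 →
        ∃ N, LstP p (Fintype.card F) N ∧ (g ^ N = 1 ∨ g ^ N = LinearEquiv.neg F) := by
      intro h
      refine ⟨_, lst (Or.inl rfl), Or.inl (rest (by rw [pow_one]; exact h) ?_ ?_)⟩
      · exact unip_pow' h2 hQ₁ hu₁ hnil₁ (Or.inr ⟨hea, by rw [pow_one]; omega⟩)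
      · exact unip_pow' h2 hQ₂ hu₂ hnil₂ (Or.inr ⟨heb, by rw [pow_one]; omega⟩)
    have hab : (a = 4 ∧ b = 0) ∨ (a = 0 ∧ b = 4) ∨ (a = 2 ∧ b = 2) := by
      obtain ⟨t, ht⟩ := heb
      obtain ⟨t', ht'⟩ := hea
      omega
    rcases hab with ⟨ha, hb⟩ | ⟨ha, hb⟩ | ⟨ha, hb⟩
    · rw [hs1 hb] at hg₀
      rcases key4 h2 hp3 hQ₀ hn hg₀ hno hnm with h | h
      · refine ⟨_, Or.inr (Or.inr (Or.inr (Or.inl rfl))), Or.inl (hone _ (pow_dvd_one h (Dvd.intro_left _ rfl)) ?_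
          (eq_zero_dim hb _ _))⟩
        have := unip_pow' (p := p) (c := 1) h2 hQ₁ hu₁ hnil₁ (Or.inr ⟨hea, by rw [pow_one]; omega⟩)
        rw [pow_one] at this
        exact pow_dvd_one this (Dvd.intro _ rfl)
      · exact r1 h
    · rcases key4 h2 hp3 hQ₀ hn (hk0 ha) (neg_no_one hnm) (neg_no_neg hno) with h | h
      · have hodd : Odd (p * ((Fintype.card F ^ 2 + 1) / 2)) := hpo.mul b2
        refine ⟨_, Or.inr (Or.inr (Or.inr (Or.inl rfl))), Or.inr (hneg _ ?_ (eq_zero_dim ha _ _) ?_)⟩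
        · have h3 := neg_mul_odd hodd (pow_dvd_one h (Dvd.intro_left p rfl))
          rwa [neg_neg_mul] at h3
        · have := unip_pow' (p := p) (c := 1) h2 hQ₂ hu₂ hnil₂ (Or.inr ⟨heb, by rw [pow_one]; omega⟩)
          rw [pow_one] at this
          exact neg_mul_odd hodd (pow_dvd_one this (Dvd.intro _ rfl))
      · apply r1
        have h3 : Even ((Fintype.card F ^ 2 - 1) * p) := (even_iff_two_dvd.2 e2).mul_right _
        obtain ⟨t, ht⟩ := h3
        rw [ht] at h ⊢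
        rw [(neg_comm g₀).mul_pow, ← two_mul, pow_mul, Cfsg.Agent.H160.QUpper.neg_pow_two, one_pow, one_mul,
          two_mul] at h
        exact h
    · rcases key4' hp3 hQ₀ hn hg₀.1 hno hnm with h | h
      · refine ⟨_, Or.inr (Or.inr (Or.inl rfl)), Or.inl (hone _ (pow_dvd_one h b4) ?_ ?_)⟩
        · rw [unip_one h2 hQ₁ hu₁ hnil₁ (by omega), one_pow]
        · rw [unip_one h2 hQ₂ hu₂ hnil₂ (by omega)]
          refine pow_dvd_one (m := 2) ?_ ?_
          · simpa using neg_mul_pow (V := Fin b → F) (F := F) (g := 1) (m := 1) (one_pow 1)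
          · refine dvd_trans ?_ b4
            exact ⟨_, b1⟩
      · exact r1 h
  · -- three pairs
    have hab : (a = 2 ∧ b = 0) ∨ (a = 0 ∧ b = 2) := by
      obtain ⟨t, ht⟩ := heb
      omega
    have conv : ∀ k : (Fin n → F) ≃ₗ[F] (Fin n → F), (∃ N, (N = (Fintype.card F ^ 3 - 1) / 2 ∨
        N = (Fintype.card F ^ 3 + 1) / 2 ∨ N = (Fintype.card F ^ 2 + 1) / 2 * (Fintype.card F - 1) ∨
        N = (Fintype.card F ^ 2 + 1) / 2 * (Fintype.card F + 1) ∨ N = p * (Fintype.card F ^ 2 - 1)) ∧ k ^ N = 1) →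
        ∃ N, LstP p (Fintype.card F) N ∧ k ^ N = 1 := by
      rintro k ⟨N, hN, hk⟩
      rcases hN with h | h | h | h | h
      · exact ⟨N, Or.inl h, hk⟩
      · exact ⟨N, Or.inr (Or.inl h), hk⟩
      · exact ⟨_, Or.inr (Or.inr (Or.inl rfl)), pow_dvd_one hk (by rw [h]; exact b5)⟩
      · exact ⟨_, Or.inr (Or.inr (Or.inl rfl)), pow_dvd_one hk (by rw [h]; exact b6)⟩
      · exact ⟨N, Or.inr (Or.inr (Or.inr (Or.inr (Or.inl h)))), hk⟩
    rcases hab with ⟨ha, hb⟩ | ⟨ha, hb⟩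
    · rw [hs1 hb] at hg₀
      obtain ⟨N, hN, hk⟩ := conv g₀ (key6 h2 hp3 hQ₀ hn hg₀ hno hnm)
      refine ⟨N, hN, Or.inl (hone _ hk ?_ (eq_zero_dim hb _ _))⟩
      rw [unip_one h2 hQ₁ hu₁ hnil₁ (by omega), one_pow]
    · obtain ⟨N, hN, hkN⟩ := conv _ (key6 h2 hp3 hQ₀ hn (hk0 ha) (neg_no_one hnm) (neg_no_neg hno))
      have hu2 := unip_one h2 hQ₂ hu₂ hnil₂ (by omega)
      refine ⟨N, hN, ?_⟩
      rcases Nat.even_or_odd N with hNe | hNo
      · left
        obtain ⟨t, rfl⟩ := hNe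
        have h5 : ∀ {d : ℕ} {u : (Fin d → F) ≃ₗ[F] (Fin d → F)}, u ^ (t + t) = 1 →
            (LinearEquiv.neg F * u) ^ (t + t) = 1 := by
          intro d u hu
          rw [(neg_comm u).mul_pow, hu, mul_one, ← two_mul, pow_mul, Cfsg.Agent.H160.QUpper.neg_pow_two, one_pow]
        refine hone _ ?_ (eq_zero_dim ha _ _) (by rw [hu2]; exact h5 (one_pow _))
        have := h5 hkN
        rwa [neg_neg_mul] at this
      · right
        refine hneg _ ?_ (eq_zero_dim ha _ _) (by rw [hu2]; exact neg_mul_odd hNo (one_pow _))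
        have := neg_mul_odd hNo hkN
        rwa [neg_neg_mul] at this
  · -- four pairs
    have ha : a = 0 := by omega
    have hb : b = 0 := by omega
    rw [hs1 hb] at hg₀
    have hdc0 : dc Q₀ = 1 := by
      subst ha
      subst hb
      rw [hdc, dc_zero, dc_zero, mul_one, mul_one] at hdcs
      exact hdcs.symm
    have hInv := inv_rts hQ₀ hg₀.1 hno hnm
    have hcard := (card_rts (en g₀)).trans ((finrank_fin n).trans hn)
    have hps := psi_pow h2 hQ₀ (by rw [finrank_fin]; exact hen) hg₀ hnm he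
    have hph := phi_pow hQ₀ hg₀ hno hnm hdc0 he
    have h2K : (2 : AlgebraicClosure F) ≠ 0 := by
      intro h
      apply h2
      apply (algebraMap F (AlgebraicClosure F)).injective
      rw [map_ofNat, map_zero, h]
    have hsg : ∀ δ : AlgebraicClosure F, (δ = 1 ∨ δ = -1) → ∃ c : F, (c = 1 ∨ c = -1) ∧
        δ = algebraMap F (AlgebraicClosure F) c := by
      rintro δ (h | h)
      · exact ⟨1, Or.inl rfl, by rw [h, map_one]⟩
      · exact ⟨-1, Or.inr rfl, by rw [h, map_neg, map_one]⟩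
    have fin : ∀ (N : ℕ) (c : F), (c = 1 ∨ c = -1) → (en g₀) ^ N = algebraMap F (Module.End F (Fin n → F)) c →
        g ^ N = 1 ∨ g ^ N = LinearEquiv.neg F := by
      intro N c hc1 h3
      rcases hc1 with rfl | rfl
      · left
        refine hone _ ?_ (eq_zero_dim ha _ _) (eq_zero_dim hb _ _)
        apply en_inj
        rw [en_pow, h3, map_one]
        rfl
      · right
        refine hneg _ ?_ (eq_zero_dim ha _ _) (eq_zero_dim hb _ _)
        apply en_inj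
        rw [en_pow, h3, map_neg, map_one]
        rfl
    have hq3 : 3 ≤ Fintype.card F := by
      have := Fintype.one_lt_card (α := F)
      omega
    rcases rt8 (frob_inj F) Fintype.card_pos he (frob_sub F) h2K hInv hcard hph hps with
      ⟨N, δ, hN, hδ, hcnt, hall⟩ | ⟨δ, hδ, hcnt, hall⟩ | hB
    · have hN0 : 0 < N := by
        have h3 : 3 ^ 3 ≤ Fintype.card F ^ 3 := Nat.pow_le_pow_left hq3 3
        have h4 : 3 ^ 4 ≤ Fintype.card F ^ 4 := Nat.pow_le_pow_left hq3 4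
        rcases hN with h | h | h <;> rw [h] <;> omega
      obtain ⟨d, hd1, hd⟩ := hsg δ hδ
      have h3 := Cfsg.Agent.H202.T.pow_eq_of_simple (g := en g₀) hN0 d hcnt (fun x hx => by rw [hall x hx, hd])
      refine ⟨N, ?_, fin N d hd1 h3⟩
      rcases hN with h | h | h
      · exact Or.inl h
      · exact Or.inr (Or.inl h)
      · exact Or.inr (Or.inr (Or.inl h))
    · obtain ⟨d, hd1, hd⟩ := hsg δ hδ
      have h3 := pow_eq_of_cnt (p := p) (g := en g₀) (N := (Fintype.card F ^ 2 + 1) / 2) (c := 1) (by omega) d hcnt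
        (fun x hx => by rw [hall x hx, hd]) (by rw [pow_one]; omega)
      rw [pow_one, mul_comm] at h3
      have hdp : d ^ p = d := by
        rcases hd1 with rfl | rfl
        · exact one_pow p
        · exact hpo.neg_one_pow
      rw [hdp] at h3
      exact ⟨_, Or.inr (Or.inr (Or.inr (Or.inl rfl))), fin _ d hd1 h3⟩
    · exact ⟨_, lst hc, Or.inl (rest (pow_of_bd hB (by omega)) (eq_zero_dim ha _ _) (eq_zero_dim hb _ _))⟩

end

end Cfsg.Agent.R2.Spec.X4.LO
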